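import Cfsg.Agent.H463.Sp.Base
import Cfsg.Agent.Sigma.ThRow
import Cfsg.Agent.ThType.NormE

/-! # The coprime pair in the Thompson group -/

set_option autoImplicit false

namespace Cfsg.Agent.H463.Sp.Th

open Cfsg Subgroup Cfsg.Agent.H463.Pair Cfsg.Agent.ThType Cfsg.Agent.ThType.ElemE Cfsg.Agent.ThType.NormE
open Cfsg.Agent.Th Cfsg.Agent.Th.Base Cfsg.Agent.Th.IndexUpper

theorem pair_model : Pair45 Spor.Th := by
  have hf : Finite Spor.Th := Main1700.final.1
  obtain ⟨S⟩ := Sigma.ThRow.exists_spin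
  have hz2 : orderOf (gTh 1) = 2 := MonsterX.ThOneClass.orderOf_a
  have hcard := card_El S 8
  have hconj : ∀ p ∈ El S 8, p ≠ 1 → ∃ g : Spor.Th, g * gTh 1 * g⁻¹ = p := by
    intro p hp hp1
    have h1 : orderOf p = 2 := orderOf_eq_prime (by rw [pow_two]; exact El_sq S hp) hp1
    exact isConj_iff.1 (MonsterX.ThOneClass.oneClass (gTh 1) p hz2 h1)
  have hF : ∃ g, g * gTh 1 * g⁻¹ ∈ S.Q ∧ g * gTh 1 * g⁻¹ ≠ gTh 1 := by
    by_contra hcon
    push Not at hcon
    have h1 : El S 8 ≤ zpowers (gTh 1) := by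
      intro p hp
      by_cases hp1 : p = 1
      · rw [hp1]; exact one_mem _
      · obtain ⟨g, rfl⟩ := hconj p hp hp1
        rw [hcon g hp.1]
        exact mem_zpowers _
    have h2 := Nat.le_of_dvd Nat.card_pos (Subgroup.card_dvd_of_le h1)
    rw [hcard, Nat.card_zpowers, hz2] at h2
    norm_num at h2
  refine Sp.pair_of_trans (r := 31) (by norm_num) (by norm_num) (E := El S 8)
    (N := normalizer (El S 8 : Set Spor.Th)) ?_ le_rfl (z_mem_El S 8) hz2 ?_ ?_ ?_
  · exact Group.isSolvable_of_comm fun a b => Subtype.ext (El_comm S a.2 b.2)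
  · intro e he he1
    obtain ⟨g, hg, hn⟩ := exists_trans S hF he he1
    exact ⟨g, mem_normalizer_of' hn, hg⟩
  · rw [hcard]
  · rw [MonsterX.ThOneClass.card_centralizer hz2]; norm_num

theorem pair {K : Type*} [Group K] (h : Spor.IsoTh K) : Pair45 K := by
  obtain ⟨e⟩ := h
  exact Cfsg.Agent.H463.Pair.congr e.symm pair_model

end Cfsg.Agent.H463.Sp.Th
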